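import Cfsg.Prelude.Def_GeometricClasses

set_option autoImplicit false
set_option linter.unusedSectionVars false

namespace Cfsg.Agent.Helper94

open Cfsg Cfsg.Geo Matrix

universe u

variable {F : Type u} [Field F]

/-- The polar form of the standard odd-dimensional quadratic form, written out. -/
theorem polar_quadFormOdd (m : ℕ) (u v : Unit ⊕ (Fin m ⊕ Fin m) → F) :
    QuadraticMap.polar (quadFormOdd m F) u v =
      2 * u (.inl ()) * v (.inl ()) +
        ∑ i : Fin m, (u (.inr (.inl i)) * v (.inr (.inr i)) + v (.inr (.inl i)) * u (.inr (.inr i))) := by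
  unfold QuadraticMap.polar quadFormOdd
  simp only [Pi.add_apply]
  have : ∀ a b c a' b' c' : F, a + b - (a' + b') - (c' + c) = (a - a' - c') + (b - b' - c) := by
    intros; ring
  rw [this, ← Finset.sum_sub_distrib, ← Finset.sum_sub_distrib]
  congr 1
  · ring
  · exact Finset.sum_congr rfl (fun i _ => by ring)

/-- The standard odd-dimensional quadratic form is a non-degenerate quadratic form when `2 ≠ 0`. -/
theorem quadFormOdd_nondegenerate (m : ℕ) (h2 : (2 : F) ≠ 0) :
    IsNondegenerateQuadraticForm (quadFormOdd m F) := by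
  refine ⟨?_, ⟨?_, ?_, ?_, ?_⟩, ?_⟩
  · intro c v
    unfold quadFormOdd
    simp only [Pi.smul_apply, smul_eq_mul]
    rw [mul_add, Finset.mul_sum]
    congr 1
    · ring
    · exact Finset.sum_congr rfl (fun i _ => by ring)
  · intro x y v
    simp only [polar_quadFormOdd, Pi.add_apply]
    have : ∀ a b c d : F, a + b + (c + d) = (a + c) + (b + d) := by intros; ring
    rw [this, ← Finset.sum_add_distrib]
    congr 1
    · ring
    · exact Finset.sum_congr rfl (fun i _ => by ring)
  · intro c x v
    simp only [polar_quadFormOdd, Pi.smul_apply, smul_eq_mul]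
    rw [mul_add, Finset.mul_sum]
    congr 1
    · ring
    · exact Finset.sum_congr rfl (fun i _ => by ring)
  · intro v x y
    simp only [polar_quadFormOdd, Pi.add_apply]
    have : ∀ a b c d : F, a + b + (c + d) = (a + c) + (b + d) := by intros; ring
    rw [this, ← Finset.sum_add_distrib]
    congr 1
    · ring
    · exact Finset.sum_congr rfl (fun i _ => by ring)
  · intro c v x
    simp only [polar_quadFormOdd, Pi.smul_apply, smul_eq_mul]
    rw [mul_add, Finset.mul_sum]
    congr 1
    · ring
    · exact Finset.sum_congr rfl (fun i _ => by ring)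
  · intro v hv
    have key : ∃ x, QuadraticMap.polar (quadFormOdd m F) x v ≠ 0 := by
      classical
      obtain ⟨j, hj⟩ : ∃ j, v j ≠ 0 := by
        by_contra hcon
        exact hv (funext fun j => by
          by_contra h
          exact hcon ⟨j, h⟩)
      rcases j with ⟨⟩ | i | i
      · refine ⟨Pi.single (.inl ()) 1, ?_⟩
        rw [polar_quadFormOdd]
        simp
        exact ⟨h2, hj⟩
      · refine ⟨Pi.single (.inr (.inr i)) 1, ?_⟩
        rw [polar_quadFormOdd]
        simp [Pi.single_apply]
        exact hj
      · refine ⟨Pi.single (.inr (.inl i)) 1, ?_⟩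
        rw [polar_quadFormOdd]
        simp [Pi.single_apply]
        exact hj
    refine ⟨key, ?_⟩
    obtain ⟨x, hx⟩ := key
    exact ⟨x, by rwa [QuadraticMap.polar_comm]⟩

end Cfsg.Agent.Helper94
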