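import Cfsg.Agent.Helper94.SpDecomp

/-!
# The stabiliser of a pair of complementary totally isotropic subspaces is maximal in `Sp` (odd `q`)
-/

set_option autoImplicit false

namespace Cfsg.Agent.Helper94

open Cfsg Cfsg.Geo Matrix

universe u

variable {F : Type u} [Field F] {m : ℕ}

/-- A pair of complementary totally isotropic subspaces. -/
structure LagPair (A B : Submodule F (Fin m ⊕ Fin m → F)) : Prop where
  isoA : ∀ x ∈ A, ∀ y ∈ A, sympForm m F x y = 0
  isoB : ∀ x ∈ B, ∀ y ∈ B, sympForm m F x y = 0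
  disj : ∀ x, x ∈ A → x ∈ B → x = 0
  dec : ∀ v : Fin m ⊕ Fin m → F, ∃ a ∈ A, ∃ b ∈ B, v = a + b

theorem LagPair.symm {A B : Submodule F (Fin m ⊕ Fin m → F)} (h : LagPair A B) : LagPair B A :=
  ⟨h.isoB, h.isoA, fun x hx hx' => h.disj x hx' hx, fun v => by
    obtain ⟨a, ha, b, hb, rfl⟩ := h.dec v
    exact ⟨b, hb, a, ha, add_comm a b⟩⟩

theorem sf_eq_zero_of_forall (x : Fin m ⊕ Fin m → F) (h : ∀ y, sympForm m F x y = 0) : x = 0 := by
  by_contra hx
  obtain ⟨y, hy⟩ := sf_exists_ne x hx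
  exact hy (h y)

theorem LagPair.perp_mem {A B : Submodule F (Fin m ⊕ Fin m → F)} (h : LagPair A B) (x : Fin m ⊕ Fin m → F)
    (hx : ∀ a ∈ A, sympForm m F a x = 0) : x ∈ A := by
  obtain ⟨a, ha, b, hb, rfl⟩ := h.dec x
  have hb0 : b = 0 := by
    apply sf_eq_zero_of_forall
    intro y
    obtain ⟨a', ha', b', hb', rfl⟩ := h.dec y
    rw [sf_add_right, h.isoB b hb b' hb', add_zero]
    have := hx a' ha'
    rw [sf_add_right, h.isoA a' ha' a ha, zero_add] at this
    rw [sf_swap, this, neg_zero]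
  rw [hb0, add_zero]
  exact ha

theorem LagPair.exists_ne {A B : Submodule F (Fin m ⊕ Fin m → F)} (h : LagPair A B) (a : Fin m ⊕ Fin m → F)
    (ha : a ∈ A) (ha0 : a ≠ 0) : ∃ b ∈ B, sympForm m F a b ≠ 0 := by
  by_contra hcon
  push Not at hcon
  apply ha0
  apply sf_eq_zero_of_forall
  intro y
  obtain ⟨a', ha', b', hb', rfl⟩ := h.dec y
  rw [sf_add_right, h.isoA a ha a' ha', hcon b' hb', add_zero]

theorem LagPair.sep {A B : Submodule F (Fin m ⊕ Fin m → F)} (h : LagPair A B) (a y : Fin m ⊕ Fin m → F)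
    (ha : a ∈ A) (hy : y ∈ A) (hay : a ∉ Submodule.span F {y}) :
    ∃ w ∈ B, sympForm m F a w = 1 ∧ sympForm m F y w = 0 := by
  obtain ⟨v, hv, hva⟩ := exists_perp_ne (Submodule.span F {y}) a hay
  obtain ⟨vA, hvA, vB, hvB, rfl⟩ := h.dec v
  have h1 : sympForm m F y vB = 0 := by
    have := (mem_perp _ _).mp hv y (Submodule.mem_span_singleton_self y)
    rw [sf_add_right, h.isoA y hy vA hvA, zero_add] at this
    exact this
  have h2 : sympForm m F a vB ≠ 0 := by
    intro h0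
    apply hva
    rw [sf_add_left, sf_swap vA a, h.isoA a ha vA hvA, neg_zero, zero_add, sf_swap, h0, neg_zero]
  refine ⟨(sympForm m F a vB)⁻¹ • vB, B.smul_mem _ hvB, ?_, ?_⟩
  · rw [sf_smul_right, inv_mul_cancel₀ h2]
  · rw [sf_smul_right, h1, mul_zero]

theorem LagPair.finrank_le {A B : Submodule F (Fin m ⊕ Fin m → F)} (h : LagPair A B) :
    Module.finrank F A ≤ m := by
  have hle : A ≤ perp A := fun x hx => (mem_perp A x).mpr (fun w hw => h.isoA w hw x hx)
  have := Submodule.finrank_mono hle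
  rw [finrank_perp] at this
  omega

theorem LagPair.finrank_eq {A B : Submodule F (Fin m ⊕ Fin m → F)} (h : LagPair A B) :
    Module.finrank F A = m := by
  have h1 := h.finrank_le
  have h2 := h.symm.finrank_le
  have htop : A ⊔ B = ⊤ := by
    rw [Submodule.eq_top_iff']
    intro v
    obtain ⟨a, ha, b, hb, rfl⟩ := h.dec v
    exact Submodule.add_mem_sup ha hb
  have h3 := Submodule.finrank_sup_add_finrank_inf_eq A B
  rw [htop, finrank_top, Module.finrank_fintype_fun_eq_card, Fintype.card_sum, Fintype.card_fin] at h3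
  omega

theorem lag_le_of_le {A B A' B' : Submodule F (Fin m ⊕ Fin m → F)} (h : LagPair A B) (h' : LagPair A' B')
    (hle : A ≤ A') : A' ≤ A := by
  intro x hx
  obtain ⟨a, ha, b, hb, rfl⟩ := h.dec x
  have hbA' : b ∈ A' := by
    have := A'.sub_mem hx (hle ha)
    rwa [add_sub_cancel_left] at this
  have hbA : b ∈ A := h.perp_mem b (fun a₁ ha₁ => h'.isoA a₁ (hle ha₁) b hbA')
  rw [h.disj b hbA hb, add_zero]
  exact ha

theorem finrank_inf_perp_ge (A X : Submodule F (Fin m ⊕ Fin m → F)) :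
    Module.finrank F A ≤
      Module.finrank F (A ⊓ perp X : Submodule F (Fin m ⊕ Fin m → F)) + Module.finrank F X := by
  have h3 := Submodule.finrank_sup_add_finrank_inf_eq A (perp X)
  have h4 := finrank_le_two_mul (A ⊔ perp X)
  have h5 := finrank_perp X
  have h6 := finrank_le_two_mul X
  omega

theorem exists_not_mem_span (S : Submodule F (Fin m ⊕ Fin m → F)) (h : 2 ≤ Module.finrank F S)
    (x : Fin m ⊕ Fin m → F) (hx : x ≠ 0) : ∃ y ∈ S, y ∉ Submodule.span F {x} := by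
  have hnle : ¬ S ≤ Submodule.span F {x} := by
    intro hle
    have := Submodule.finrank_mono hle
    rw [finrank_span_singleton hx] at this
    omega
  exact SetLike.not_le_iff_exists.mp hnle

theorem exists_two_indep (S : Submodule F (Fin m ⊕ Fin m → F)) (h : 2 ≤ Module.finrank F S) :
    ∃ x₁ ∈ S, ∃ x₂ ∈ S, x₁ ≠ 0 ∧ x₂ ∉ Submodule.span F {x₁} := by
  have hS : S ≠ ⊥ := by
    intro hbot
    rw [hbot, finrank_bot] at h
    omega
  obtain ⟨x₁, hx₁, hx₁0⟩ := Submodule.exists_mem_ne_zero_of_ne_bot hS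
  obtain ⟨x₂, hx₂, hx₂n⟩ := exists_not_mem_span S h x₁ hx₁0
  exact ⟨x₁, hx₁, x₂, hx₂, hx₁0, hx₂n⟩

/-! ### Eichler elements -/

theorem eichGL_symm (w y : Fin m ⊕ Fin m → F) (hyw : sympForm m F y w = 0) : eichGL w y = eichGL y w := by
  have hwy : sympForm m F w y = 0 := by rw [sf_swap, hyw, neg_zero]
  apply gl_ext
  intro v
  rw [eichGL_mulVec w y hyw, eichGL_mulVec y w hwy]
  abel

theorem eichGL_conj {g : GL (Fin m ⊕ Fin m) F} (hg : g ∈ spGL m F) (w y : Fin m ⊕ Fin m → F) :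
    g * eichGL w y * g⁻¹ = eichGL ((g : Matrix (Fin m ⊕ Fin m) (Fin m ⊕ Fin m) F) *ᵥ w)
      ((g : Matrix (Fin m ⊕ Fin m) (Fin m ⊕ Fin m) F) *ᵥ y) := by
  rw [eichGL, eichGL, ← mulVec_add, ← stGL_conj hg, ← stGL_conj hg, ← stGL_conj hg]
  group

theorem eichGL_mul (a b₁ b₂ : Fin m ⊕ Fin m → F) (h1 : sympForm m F b₁ a = 0) (h2 : sympForm m F b₂ a = 0)
    (h12 : sympForm m F b₁ b₂ = 0) : eichGL a b₁ * eichGL a b₂ = eichGL a (b₁ + b₂) := by
  have h1' : sympForm m F a b₁ = 0 := by rw [sf_swap, h1, neg_zero]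
  have h21 : sympForm m F b₂ b₁ = 0 := by rw [sf_swap, h12, neg_zero]
  apply gl_ext
  intro v
  rw [gl_mul_mulVec, eichGL_mulVec a b₂ h2, eichGL_mulVec a b₁ h1,
    eichGL_mulVec a (b₁ + b₂) (by rw [sf_add_left, h1, h2, add_zero])]
  simp only [sf_add_left, sf_add_right, sf_smul_left, sf_smul_right, sf_self, h1, h2, h12, h1', h21]
  module

theorem eichGL_self (a : Fin m ⊕ Fin m → F) (t : F) : eichGL a (t • a) = stGL a (2 * t) := by
  apply gl_ext
  intro v
  rw [eichGL_mulVec a (t • a) (by rw [sf_smul_left, sf_self, mul_zero]), stGL_mulVec, sf_smul_right]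
  module

theorem stGL_inv (u : Fin m ⊕ Fin m → F) (c : F) : (stGL u c)⁻¹ = stGL u (-c) := Units.ext rfl

/-! ### Spreading transvection centres inside a Lagrangian -/

theorem lag_spread {A B : Submodule F (Fin m ⊕ Fin m → F)} (h : LagPair A B)
    (K : Subgroup (GL (Fin m ⊕ Fin m) F))
    (hK : ∀ u ∈ A, ∀ w ∈ B, sympForm m F u w = 0 → eichGL u w ∈ K)
    (a : Fin m ⊕ Fin m → F) (ha : a ∈ A) (ha0 : a ≠ 0) (hac : a ∈ tvCentres K) :
    ∀ x ∈ A, x ∈ tvCentres K := by
  intro x hx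
  by_cases hxa : x ∈ Submodule.span F {a}
  · obtain ⟨t, rfl⟩ := Submodule.mem_span_singleton.mp hxa
    exact tvCentres_smul K hac t
  · have hay : a ∉ Submodule.span F {x - a} := by
      intro hmem
      obtain ⟨t, ht⟩ := Submodule.mem_span_singleton.mp hmem
      apply hxa
      rw [Submodule.mem_span_singleton]
      have ht0 : t ≠ 0 := by
        rintro rfl
        rw [zero_smul] at ht
        exact ha0 ht.symm
      refine ⟨t⁻¹ * (1 + t), ?_⟩
      have e : t • x = (1 + t) • a := by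
        rw [smul_sub] at ht
        rw [add_smul, one_smul]
        rw [sub_eq_iff_eq_add] at ht
        exact ht
      rw [mul_smul, ← e, smul_smul, inv_mul_cancel₀ ht0, one_smul]
    obtain ⟨w, hw, hw1, hw0⟩ := h.sep a (x - a) ha (A.sub_mem hx ha) hay
    have hρ := hK (x - a) (A.sub_mem hx ha) w hw hw0
    have := tvCentres_map K hρ (eichGL_mem _ _) hac
    rw [eichGL_mulVec (x - a) w (by rw [sf_swap, hw0, neg_zero]) a, h.isoA a ha (x - a) (A.sub_mem hx ha),
      zero_smul, add_zero, hw1, one_smul] at this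
    have e : a + (x - a) = x := by abel
    rwa [e] at this

theorem lag_centres (h2 : (2 : F) ≠ 0) (hm : 2 ≤ m) {A B : Submodule F (Fin m ⊕ Fin m → F)} (h : LagPair A B)
    (K : Subgroup (GL (Fin m ⊕ Fin m) F))
    (hK : ∀ u ∈ A, ∀ w ∈ B, sympForm m F u w = 0 → eichGL u w ∈ K)
    (a b : Fin m ⊕ Fin m → F) (ha : a ∈ A) (ha0 : a ≠ 0) (hab : sympForm m F a b = 0) (hb : b ∉ B)
    (hρ : eichGL a b ∈ K) : ∀ x ∈ A, x ∈ tvCentres K := by
  obtain ⟨bA, hbA, bB, hbB, rfl⟩ := h.dec b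
  have hbA0 : bA ≠ 0 := by
    rintro rfl
    rw [zero_add] at hb
    exact hb hbB
  have habB : sympForm m F a bB = 0 := by
    rw [sf_add_right, h.isoA a ha bA hbA, zero_add] at hab
    exact hab
  have hbBa : sympForm m F bB a = 0 := by rw [sf_swap, habB, neg_zero]
  obtain ⟨d, hd⟩ : ∃ d : F, sympForm m F bA bB = d + d := ⟨sympForm m F bA bB / 2, by field_simp; ring⟩
  obtain ⟨b', hb'def⟩ : ∃ b', b' = bA - d • a := ⟨_, rfl⟩
  have hb'A : b' ∈ A := by
    rw [hb'def]
    exact A.sub_mem hbA (A.smul_mem d ha)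
  have hb'0 : b' ≠ 0 := by
    intro h0
    rw [hb'def, sub_eq_zero] at h0
    have hdd : d + d = 0 := by rw [← hd, h0, sf_smul_left, habB, mul_zero]
    have hd0 : d = 0 := by
      have h2d : 2 * d = 0 := by rw [two_mul]; exact hdd
      rcases mul_eq_zero.mp h2d with h | h
      · exact absurd h h2
      · exact h
    rw [hd0, zero_smul] at h0
    exact hbA0 h0
  have hρ' : eichGL a b' ∈ K := by
    have e : eichGL a (bA + bB) = eichGL a bB * eichGL a b' := by
      apply gl_ext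
      intro v
      rw [gl_mul_mulVec, eichGL_mulVec a b' (h.isoA b' hb'A a ha), eichGL_mulVec a bB hbBa,
        eichGL_mulVec a (bA + bB) (by rw [sf_swap, hab, neg_zero])]
      rw [hb'def]
      simp only [sf_add_left, sf_add_right, sf_smul_left, sf_smul_right, sf_sub_left, sf_sub_right, sf_self,
        habB, hd, h.isoA bA hbA a ha]
      module
    have h1 := hK a ha bB hbB habB
    have h3 := K.mul_mem (K.inv_mem h1) hρ
    rwa [e, inv_mul_cancel_left] at h3
  -- an independent partner gives all transvections centred at `a`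
  have key : ∀ b'' ∈ A, b'' ∉ Submodule.span F {a} → eichGL a b'' ∈ K → a ∈ tvCentres K := by
    intro b'' hb''A hb''n hρ''
    obtain ⟨w, hw, hw1, hw0⟩ := h.sep b'' a hb''A ha hb''n
    intro c
    have hu : (c / 2) • a ∈ A := A.smul_mem _ ha
    have huw : sympForm m F ((c / 2) • a) w = 0 := by rw [sf_smul_left, hw0, mul_zero]
    have hwu : sympForm m F w ((c / 2) • a) = 0 := by rw [sf_swap, huw, neg_zero]
    have hρu := hK _ hu w hw huw
    have hconj := K.mul_mem (K.mul_mem hρu hρ'') (K.inv_mem hρu)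
    rw [eichGL_conj (eichGL_mem _ _), eichGL_mulVec ((c / 2) • a) w hwu a,
      eichGL_mulVec ((c / 2) • a) w hwu b'', h.isoA a ha _ hu, hw0, h.isoA b'' hb''A _ hu, hw1] at hconj
    simp only [zero_smul, add_zero, one_smul] at hconj
    have e := eichGL_mul a b'' ((c / 2) • a) (h.isoA b'' hb''A a ha) (by rw [sf_smul_left, sf_self, mul_zero])
      (by rw [sf_smul_right, h.isoA b'' hb''A a ha, mul_zero])
    have h3 := K.mul_mem (K.inv_mem hρ'') hconj
    rw [← e, inv_mul_cancel_left, eichGL_self] at h3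
    have e2 : 2 * (c / 2) = c := by field_simp
    rwa [e2] at h3
  by_cases hdep : b' ∈ Submodule.span F {a}
  · obtain ⟨lam, hlam⟩ := Submodule.mem_span_singleton.mp hdep
    have hlam0 : lam ≠ 0 := by
      rintro rfl
      rw [zero_smul] at hlam
      exact hb'0 hlam.symm
    rw [← hlam, eichGL_self] at hρ'
    obtain ⟨w, hw, hw1⟩ : ∃ w ∈ B, sympForm m F a w = 1 := by
      obtain ⟨w₀, hw₀, hne⟩ := h.exists_ne a ha ha0
      exact ⟨(sympForm m F a w₀)⁻¹ • w₀, B.smul_mem _ hw₀, by rw [sf_smul_right, inv_mul_cancel₀ hne]⟩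
    obtain ⟨a₂, ha₂, ha₂n⟩ := exists_not_mem_span A (by rw [h.finrank_eq]; exact hm) a ha0
    obtain ⟨u, hudef⟩ : ∃ u, u = a₂ - sympForm m F a₂ w • a := ⟨_, rfl⟩
    have huA : u ∈ A := by
      rw [hudef]
      exact A.sub_mem ha₂ (A.smul_mem _ ha)
    have huw : sympForm m F u w = 0 := by
      rw [hudef, sf_sub_left, sf_smul_left, hw1, mul_one, sub_self]
    have hwu : sympForm m F w u = 0 := by rw [sf_swap, huw, neg_zero]
    have hun : u ∉ Submodule.span F {a} := by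
      intro hmem
      apply ha₂n
      have e : a₂ = u + sympForm m F a₂ w • a := by rw [hudef]; abel
      rw [e]
      exact Submodule.add_mem _ hmem (Submodule.smul_mem _ _ (Submodule.mem_span_singleton_self a))
    have c1 : stGL (a + u) (2 * lam) ∈ K := by
      have hρu := hK u huA w hw huw
      have := K.mul_mem (K.mul_mem hρu hρ') (K.inv_mem hρu)
      rw [stGL_conj (eichGL_mem _ _), eichGL_mulVec u w hwu a, h.isoA a ha u huA, hw1, zero_smul, add_zero,
        one_smul] at this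
      exact this
    have c2 : stGL (a - u) (2 * lam) ∈ K := by
      have hnuw : sympForm m F (-u) w = 0 := by rw [sf_neg_left, huw, neg_zero]
      have hwnu : sympForm m F w (-u) = 0 := by rw [sf_neg_right, hwu, neg_zero]
      have hρu := hK (-u) (A.neg_mem huA) w hw hnuw
      have := K.mul_mem (K.mul_mem hρu hρ') (K.inv_mem hρu)
      rw [stGL_conj (eichGL_mem _ _), eichGL_mulVec (-u) w hwnu a, h.isoA a ha (-u) (A.neg_mem huA), hw1,
        zero_smul, add_zero, one_smul, ← sub_eq_add_neg] at this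
      exact this
    have e : eichGL a ((2 * (2 * lam)) • u) = stGL (a + u) (2 * lam) * stGL (a - u) (-(2 * lam)) := by
      apply gl_ext
      intro v
      rw [gl_mul_mulVec, eichGL_mulVec a _ (by rw [sf_smul_left, h.isoA u huA a ha, mul_zero]), stGL_mulVec,
        stGL_mulVec]
      simp only [sf_add_left, sf_add_right, sf_sub_left, sf_sub_right, sf_smul_left, sf_smul_right, sf_self,
        h.isoA a ha u huA, h.isoA u huA a ha]
      module
    have hρ2 : eichGL a ((2 * (2 * lam)) • u) ∈ K := by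
      rw [e, ← stGL_inv]
      exact K.mul_mem c1 (K.inv_mem c2)
    refine lag_spread h K hK a ha ha0 (key _ (A.smul_mem _ huA) ?_ hρ2)
    intro hmem
    apply hun
    have h4 : (2 * (2 * lam)) ≠ 0 := mul_ne_zero h2 (mul_ne_zero h2 hlam0)
    have e3 : u = (2 * (2 * lam))⁻¹ • ((2 * (2 * lam)) • u) := by
      rw [smul_smul, inv_mul_cancel₀ h4, one_smul]
    rw [e3]
    exact Submodule.smul_mem _ _ hmem
  · exact lag_spread h K hK a ha ha0 (key b' hb'A hdep hρ')

/-! ### Two pairs in special position -/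

theorem lag_nongeneric (hm : 3 ≤ m) {A B A' B' : Submodule F (Fin m ⊕ Fin m → F)} (h : LagPair A B)
    (h' : LagPair A' B') (K : Subgroup (GL (Fin m ⊕ Fin m) F))
    (hK : ∀ a ∈ A', ∀ b ∈ B', sympForm m F a b = 0 → eichGL a b ∈ K)
    (x₀ : Fin m ⊕ Fin m → F) (hx₀ : x₀ ∈ A) (hx₀' : x₀ ∈ A') (hx₀0 : x₀ ≠ 0) (hne : ¬ (A' = A ∧ B' = B)) :
    ∃ a b, eichGL a b ∈ K ∧ sympForm m F a b = 0 ∧ a ≠ 0 ∧ ((a ∈ A ∧ b ∉ B) ∨ (a ∈ B ∧ b ∉ A)) := by
  by_contra hcon
  push Not at hcon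
  have P1 : ∀ a ∈ A', a ∈ A → a ≠ 0 → ∀ b ∈ B', sympForm m F a b = 0 → b ∈ B :=
    fun a ha' ha ha0 b hb' hab => (hcon a b (hK a ha' b hb' hab) hab ha0).1 ha
  have P2 : ∀ b ∈ B', b ∈ B → b ≠ 0 → ∀ a ∈ A', sympForm m F a b = 0 → a ∈ A := by
    intro b hb' hb hb0 a ha' hab
    have hba : sympForm m F b a = 0 := by rw [sf_swap, hab, neg_zero]
    have hmem : eichGL b a ∈ K := by
      rw [eichGL_symm b a hab]
      exact hK a ha' b hb' hab
    exact (hcon b a hmem hba hb0).2 hb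
  have hdim : 2 ≤ Module.finrank F (B' ⊓ perp (Submodule.span F {x₀}) : Submodule F (Fin m ⊕ Fin m → F)) := by
    have := finrank_inf_perp_ge B' (Submodule.span F {x₀})
    rw [finrank_span_singleton hx₀0, h'.symm.finrank_eq] at this
    omega
  obtain ⟨b₁, hb₁, b₂, hb₂, hb₁0, hb₂n⟩ := exists_two_indep _ hdim
  have hb₁' : b₁ ∈ B' := hb₁.1
  have hb₂' : b₂ ∈ B' := hb₂.1
  have hb₁p : sympForm m F x₀ b₁ = 0 := (mem_perp _ _).mp hb₁.2 x₀ (Submodule.mem_span_singleton_self x₀)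
  have hb₂p : sympForm m F x₀ b₂ = 0 := (mem_perp _ _).mp hb₂.2 x₀ (Submodule.mem_span_singleton_self x₀)
  have hb₁B := P1 x₀ hx₀' hx₀ hx₀0 b₁ hb₁' hb₁p
  have hb₂B := P1 x₀ hx₀' hx₀ hx₀0 b₂ hb₂' hb₂p
  have hb₂0 : b₂ ≠ 0 := by
    rintro rfl
    exact hb₂n (Submodule.zero_mem _)
  have hAle : A' ≤ A := by
    obtain ⟨y, hy, hy1, hy0⟩ := h'.symm.sep b₂ b₁ hb₂' hb₁' hb₂n
    intro x hx
    have e : x = (x - sympForm m F b₂ x • y) + sympForm m F b₂ x • y := by abel
    rw [e]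
    refine A.add_mem (P2 b₂ hb₂' hb₂B hb₂0 _ (A'.sub_mem hx (A'.smul_mem _ hy)) ?_)
      (A.smul_mem _ (P2 b₁ hb₁' hb₁B hb₁0 y hy ?_))
    · rw [sf_sub_left, sf_smul_left, sf_swap y b₂, hy1, sf_swap x b₂]
      ring
    · rw [sf_swap, hy0, neg_zero]
  have hAeq : A' = A := le_antisymm hAle (lag_le_of_le h' h hAle)
  have hBle : B' ≤ B := by
    obtain ⟨a₁, ha₁, a₂, ha₂, ha₁0, ha₂n⟩ := exists_two_indep A' (by rw [h'.finrank_eq]; omega)
    have ha₂0 : a₂ ≠ 0 := by
      rintro rfl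
      exact ha₂n (Submodule.zero_mem _)
    obtain ⟨z, hz, hz1, hz0⟩ := h'.sep a₂ a₁ ha₂ ha₁ ha₂n
    intro y hy
    have e : y = (y - sympForm m F a₂ y • z) + sympForm m F a₂ y • z := by abel
    rw [e]
    refine B.add_mem (P1 a₂ ha₂ (hAle ha₂) ha₂0 _ (B'.sub_mem hy (B'.smul_mem _ hz)) ?_)
      (B.smul_mem _ (P1 a₁ ha₁ (hAle ha₁) ha₁0 z hz hz0))
    rw [sf_sub_right, sf_smul_right, hz1, mul_one, sub_self]
  have hBeq : B' = B := le_antisymm hBle (lag_le_of_le h'.symm h.symm hBle)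
  exact hne ⟨hAeq, hBeq⟩

/-! ### Two pairs in general position -/

theorem lag_generic (hm : 3 ≤ m) {U W U' W' : Submodule F (Fin m ⊕ Fin m → F)} (h : LagPair U W)
    (h' : LagPair U' W') (hg1 : ∀ x, x ∈ U → x ∈ U' → x = 0) (hg2 : ∀ x, x ∈ W → x ∈ U' → x = 0) :
    ∃ u ∈ U, ∃ w ∈ W, sympForm m F u w = 0 ∧
      (∃ x ∈ U', ((eichGL u w : GL (Fin m ⊕ Fin m) F) : Matrix (Fin m ⊕ Fin m) (Fin m ⊕ Fin m) F) *ᵥ x ∉ U') ∧
      (∃ x ∈ U', x ≠ 0 ∧
        ((eichGL u w : GL (Fin m ⊕ Fin m) F) : Matrix (Fin m ⊕ Fin m) (Fin m ⊕ Fin m) F) *ᵥ x = x) := by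
  have hU : Module.finrank F U = m := h.finrank_eq
  obtain ⟨u, hu, hu0⟩ : ∃ u ∈ U, u ≠ 0 := by
    apply Submodule.exists_mem_ne_zero_of_ne_bot
    intro hbot
    rw [hbot, finrank_bot] at hU
    omega
  have hdim : 2 ≤ Module.finrank F (W ⊓ perp (Submodule.span F {u}) : Submodule F (Fin m ⊕ Fin m → F)) := by
    have := finrank_inf_perp_ge W (Submodule.span F {u})
    rw [finrank_span_singleton hu0, h.symm.finrank_eq] at this
    omega
  obtain ⟨w₁, hw₁, w₂, hw₂, hw₁0, hw₂n⟩ := exists_two_indep _ hdim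
  have hw₁p : sympForm m F u w₁ = 0 := (mem_perp _ _).mp hw₁.2 u (Submodule.mem_span_singleton_self u)
  have hw₂p : sympForm m F u w₂ = 0 := (mem_perp _ _).mp hw₂.2 u (Submodule.mem_span_singleton_self u)
  have good : ∃ w ∈ W, sympForm m F u w = 0 ∧ ∀ α β : F, α • u + β • w ∈ U' → α = 0 ∧ β = 0 := by
    by_contra hcon
    push Not at hcon
    obtain ⟨α₁, β₁, hmem₁, hne₁⟩ := hcon w₁ hw₁.1 hw₁p
    obtain ⟨α₂, β₂, hmem₂, hne₂⟩ := hcon w₂ hw₂.1 hw₂p
    have hcomb : (α₂ * β₁) • w₁ - (α₁ * β₂) • w₂ = 0 := by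
      apply hg2
      · exact W.sub_mem (W.smul_mem _ hw₁.1) (W.smul_mem _ hw₂.1)
      · have := U'.sub_mem (U'.smul_mem α₂ hmem₁) (U'.smul_mem α₁ hmem₂)
        have e : α₂ • (α₁ • u + β₁ • w₁) - α₁ • (α₂ • u + β₂ • w₂) = (α₂ * β₁) • w₁ - (α₁ * β₂) • w₂ := by
          module
        rwa [e] at this
    by_cases hα₁ : α₁ = 0
    · have hβ₁ := hne₁ hα₁
      rw [hα₁, zero_smul, zero_add] at hmem₁
      have := hg2 _ (W.smul_mem β₁ hw₁.1) hmem₁
      rcases smul_eq_zero.mp this with h0 | h0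
      · exact hβ₁ h0
      · exact hw₁0 h0
    · by_cases hβ₂ : β₂ = 0
      · have hα₂ : α₂ ≠ 0 := fun h0 => hne₂ h0 hβ₂
        rw [hβ₂, zero_smul, add_zero] at hmem₂
        have := hg1 _ (U.smul_mem α₂ hu) hmem₂
        rcases smul_eq_zero.mp this with h0 | h0
        · exact hα₂ h0
        · exact hu0 h0
      · apply hw₂n
        rw [Submodule.mem_span_singleton]
        refine ⟨(α₁ * β₂)⁻¹ * (α₂ * β₁), ?_⟩
        have h12 : α₁ * β₂ ≠ 0 := mul_ne_zero hα₁ hβ₂
        have e : (α₁ * β₂) • w₂ = (α₂ * β₁) • w₁ := (sub_eq_zero.mp hcomb).symm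
        rw [mul_smul, ← e, smul_smul, inv_mul_cancel₀ h12, one_smul]
  obtain ⟨w, hw, huw, hgood⟩ := good
  have hwu : sympForm m F w u = 0 := by rw [sf_swap, huw, neg_zero]
  refine ⟨u, hu, w, hw, huw, ?_, ?_⟩
  · by_contra hcon
    push Not at hcon
    have hperp : ∀ x ∈ U', sympForm m F x u = 0 := by
      intro x hx
      have := hcon x hx
      rw [eichGL_mulVec u w hwu] at this
      have h3 : sympForm m F x w • u + sympForm m F x u • w ∈ U' := by
        have := U'.sub_mem this hx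
        have e : x + sympForm m F x u • w + sympForm m F x w • u - x =
            sympForm m F x w • u + sympForm m F x u • w := by abel
        rwa [e] at this
      exact (hgood _ _ h3).2
    have : u ∈ U' := h'.perp_mem u hperp
    exact hu0 (hg1 u hu this)
  · classical
    have hX : Module.finrank F (Submodule.span F ((({u, w} : Finset (Fin m ⊕ Fin m → F))) :
        Set (Fin m ⊕ Fin m → F))) ≤ 2 := le_trans (finrank_span_finset_le_card _) Finset.card_le_two
    have hdim2 := finrank_inf_perp_ge U' (Submodule.span F ((({u, w} : Finset (Fin m ⊕ Fin m → F))) :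
        Set (Fin m ⊕ Fin m → F)))
    have hne : (U' ⊓ perp (Submodule.span F ((({u, w} : Finset (Fin m ⊕ Fin m → F))) :
        Set (Fin m ⊕ Fin m → F))) : Submodule F (Fin m ⊕ Fin m → F)) ≠ ⊥ := by
      intro hbot
      rw [hbot, finrank_bot, h'.finrank_eq] at hdim2
      omega
    obtain ⟨x, hx, hx0⟩ := Submodule.exists_mem_ne_zero_of_ne_bot hne
    refine ⟨x, hx.1, hx0, ?_⟩
    have hxu : sympForm m F x u = 0 := by
      have := (mem_perp _ _).mp hx.2 u (Submodule.subset_span (by simp))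
      rw [sf_swap, this, neg_zero]
    have hxw : sympForm m F x w = 0 := by
      have := (mem_perp _ _).mp hx.2 w (Submodule.subset_span (by simp))
      rw [sf_swap, this, neg_zero]
    rw [eichGL_mulVec u w hwu, hxu, hxw, zero_smul, zero_smul, add_zero, add_zero]

end Cfsg.Agent.Helper94
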