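import Cfsg.Agent.Helper94.SpSwap

set_option autoImplicit false
set_option linter.unusedSectionVars false
set_option linter.unusedSimpArgs false
set_option linter.unusedVariables false

namespace Cfsg.Agent.Helper94

open Cfsg Cfsg.Geo Matrix

universe u

variable {F : Type u} [Field F] {m : ℕ}

theorem gl_toLin_injective {ι : Type} [Fintype ι] [DecidableEq ι] (g : GL ι F) :
    Function.Injective (Matrix.toLin' (g : Matrix ι ι F)) := by
  intro x y hxy
  rw [Matrix.toLin'_apply, Matrix.toLin'_apply] at hxy
  have := congrArg (fun z => ((g⁻¹ : GL ι F) : Matrix ι ι F) *ᵥ z) hxy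
  simpa [gl_inv_mulVec] using this

/-- Membership in the decomposition stabiliser from mapping members into members. -/
theorem decomp_stab_of_maps {ι : Type} [Fintype ι] [DecidableEq ι] {t k : ℕ}
    (D : Fin t → Submodule F (ι → F)) (hfr : ∀ l, Module.finrank F (D l) = k) (g : GL ι F)
    (σ : Equiv.Perm (Fin t)) (h : ∀ l, ∀ x ∈ D l, (g : Matrix ι ι F) *ᵥ x ∈ D (σ l)) :
    g ∈ decompositionStabilizer D := by
  refine ⟨σ, fun l => ?_⟩
  apply Submodule.eq_of_le_of_finrank_eq
  · rintro _ ⟨x, hx, rfl⟩
    rw [Matrix.toLin'_apply]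
    exact h l x hx
  · rw [← (Submodule.equivMapOfInjective _ (gl_toLin_injective g) (D l)).finrank_eq, hfr, hfr]

theorem exists_ne_zero_one [Fintype F] (h : 2 < Fintype.card F) : ∃ c : F, c ≠ 0 ∧ c ≠ 1 := by
  obtain ⟨a, b, c, hab, hac, hbc⟩ := Fintype.two_lt_card_iff.mp h
  by_cases ha0 : a = 0
  · by_cases hb1 : b = 1
    · exact ⟨c, fun h => hac (ha0.trans h.symm), fun h => hbc (hb1.trans h.symm)⟩
    · exact ⟨b, fun h => hab (ha0.trans h.symm), hb1⟩
  · by_cases ha1 : a = 1
    · by_cases hb0 : b = 0
      · exact ⟨c, fun h => hbc (hb0.trans h.symm), fun h => hac (ha1.trans h.symm)⟩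
      · exact ⟨b, hb0, fun h => hab (ha1.trans h.symm)⟩
    · exact ⟨a, ha0, ha1⟩

/-- In a non-degenerate subspace which is not a plane over the field with two elements, every non-zero vector
has a perpendicular companion different from itself and from zero. -/
theorem exists_perp_other [Fintype F] (W : Submodule F (Fin m ⊕ Fin m → F))
    (hW : IsNondegenerateOn (sympForm m F) W) (hex : ¬ (Module.finrank F W = 2 ∧ Fintype.card F = 2))
    (b : Fin m ⊕ Fin m → F) (hb : b ∈ W) (hb0 : b ≠ 0) :
    ∃ b' ∈ W, b' ≠ 0 ∧ b - b' ≠ 0 ∧ sympForm m F b b' = 0 := by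
  by_cases hq : Fintype.card F = 2
  · have hk : Module.finrank F W ≠ 2 := fun h => hex ⟨h, hq⟩
    obtain ⟨-, ⟨x, hx, hbx⟩⟩ := hW b hb hb0
    have hli : LinearIndependent F ![b, x] := by
      rw [LinearIndependent.pair_iff]
      intro s t hst
      have h1 := congrArg (fun v => sympForm m F b v) hst
      simp only [sf_add_right, sf_smul_right, sf_self, sf_zero_right, mul_zero, zero_add] at h1
      have ht : t = 0 := (mul_eq_zero.mp h1).resolve_right hbx
      subst ht
      simp only [zero_smul, add_zero, smul_eq_zero] at hst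
      exact ⟨hst.resolve_right hb0, rfl⟩
    have hnotle : ¬ W ≤ Submodule.span F {b, x} := by
      intro hle
      apply hk
      have heq : W = Submodule.span F {b, x} := by
        apply le_antisymm hle
        rw [Submodule.span_le]
        intro v hv
        rcases hv with rfl | rfl
        exacts [hb, hx]
      rw [heq]
      have := finrank_span_eq_card hli
      rw [Matrix.range_cons_cons_empty] at this
      simpa using this
    obtain ⟨y, hy, hyn⟩ := SetLike.not_le_iff_exists.mp hnotle
    refine ⟨y - ((sympForm m F b x)⁻¹ * sympForm m F b y) • x, W.sub_mem hy (W.smul_mem _ hx), ?_, ?_, ?_⟩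
    · intro h
      apply hyn
      rw [sub_eq_zero] at h
      rw [h]
      exact Submodule.smul_mem _ _ (Submodule.subset_span (by simp))
    · intro h
      apply hyn
      have : y = b + ((sympForm m F b x)⁻¹ * sympForm m F b y) • x := by
        have h2 := sub_eq_zero.mp h
        exact (eq_sub_iff_add_eq.mp h2).symm
      rw [this]
      exact Submodule.add_mem _ (Submodule.subset_span (by simp))
        (Submodule.smul_mem _ _ (Submodule.subset_span (by simp)))
    · rw [sf_sub_right, sf_smul_right]
      field_simp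
      ring
  · have h2 : 2 < Fintype.card F := by
      have := Fintype.one_lt_card (α := F)
      omega
    obtain ⟨c, hc0, hc1⟩ := exists_ne_zero_one h2
    refine ⟨c • b, W.smul_mem _ hb, smul_ne_zero hc0 hb0, ?_, ?_⟩
    · have : b - c • b = (1 - c) • b := by rw [sub_smul, one_smul]
      rw [this]
      exact smul_ne_zero (sub_ne_zero.mpr (Ne.symm hc1)) hb0
    · rw [sf_smul_right, sf_self, mul_zero]


/-- The stabiliser in the symplectic group of an orthogonal decomposition into non-degenerate subspaces of equal
dimension is maximal, unless the members are planes over the field with two elements. -/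
theorem sp_decomp_max [Fintype F] {t : ℕ} (k : ℕ) (D : Fin t → Submodule F (Fin m ⊕ Fin m → F))
    (hD : IsNondegenerateMDecomposition (sympForm m F) k D) (hex : ¬ (k = 2 ∧ Fintype.card F = 2)) :
    IsMaximalIn (spGL m F) (decompositionStabilizer D ⊓ spGL m F) := by
  classical
  have ht := hD.decomp.two_le
  have hnd := hD.nondegenerate
  have horth : ∀ i j, i ≠ j → ∀ u ∈ D i, ∀ v ∈ D j, sympForm m F u v = 0 :=
    fun i j hij u hu v hv => hD.orthogonal i j hij u hu v hv
  have hfr := hD.decomp.finrank_eq
  have hne : ∀ i, D i ≠ ⊥ := by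
    intro i h
    have h1 := hfr i
    rw [h, finrank_bot] at h1
    have h2 := hD.decomp.pos
    omega
  have hzero : ∀ x, (∀ i, ∀ d ∈ D i, sympForm m F d x = 0) → x = 0 := by
    intro x hx
    have hle : iSup D ≤ perp (Submodule.span F {x}) := by
      apply iSup_le
      intro i d hd
      rw [mem_perp]
      intro w hw
      obtain ⟨c, rfl⟩ := Submodule.mem_span_singleton.mp hw
      rw [sf_smul_left, sf_swap, hx i d hd]
      ring
    rw [hD.decomp.iSup_eq_top] at hle
    apply Helper13.sympForm_sep
    intro y
    exact (mem_perp _ y).mp (hle Submodule.mem_top) x (Submodule.mem_span_singleton_self x)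
  have hdisj : ∀ i j, i ≠ j → ∀ x, x ∈ D i → x ∈ D j → x = 0 := by
    intro i j hij x hxi hxj
    by_contra h0
    obtain ⟨⟨y, hy, hyx⟩, -⟩ := hnd i x hxi h0
    exact hyx (horth i j hij y hy x hxj)
  constructor
  · rw [SetLike.lt_iff_le_and_exists]
    refine ⟨inf_le_right, ?_⟩
    obtain ⟨i₀, i₁, n01⟩ : ∃ i₀ i₁ : Fin t, i₀ ≠ i₁ :=
      ⟨⟨0, by omega⟩, ⟨1, by omega⟩, by simp [Fin.ext_iff]⟩
    obtain ⟨x₀, hx₀, hx₀0⟩ := Submodule.exists_mem_ne_zero_of_ne_bot (hne i₀)
    obtain ⟨x₁, hx₁, hx₁0⟩ := Submodule.exists_mem_ne_zero_of_ne_bot (hne i₁)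
    obtain ⟨⟨y, hy, hyx⟩, -⟩ := hnd i₀ x₀ hx₀ hx₀0
    refine ⟨stGL (x₀ + x₁) 1, stGL_mem _ _, ?_⟩
    rintro ⟨⟨σ, hσ⟩, -⟩
    have hz : ((stGL (x₀ + x₁) 1 : GL (Fin m ⊕ Fin m) F) : Matrix (Fin m ⊕ Fin m) (Fin m ⊕ Fin m) F) *ᵥ y
        ∈ D (σ i₀) := by
      rw [← hσ i₀]
      exact ⟨y, hy, Matrix.toLin'_apply _ _⟩
    rw [stGL_mulVec, one_mul, sf_add_right, horth i₀ i₁ n01 y hy x₁ hx₁, add_zero] at hz
    by_cases hσ0 : σ i₀ = i₀
    · rw [hσ0] at hz
      have h1 : sympForm m F y x₀ • x₁ ∈ D i₀ := by
        have := (D i₀).sub_mem ((D i₀).sub_mem hz hy) ((D i₀).smul_mem (sympForm m F y x₀) hx₀)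
        have e : y + sympForm m F y x₀ • (x₀ + x₁) - y - sympForm m F y x₀ • x₀ =
            sympForm m F y x₀ • x₁ := by
          rw [smul_add]; abel
        rwa [e] at this
      have h2 : x₁ ∈ D i₀ := by
        have := (D i₀).smul_mem (sympForm m F y x₀)⁻¹ h1
        rwa [smul_smul, inv_mul_cancel₀ hyx, one_smul] at this
      exact hx₁0 (hdisj i₀ i₁ n01 x₁ h2 hx₁)
    · have hne0 : y + sympForm m F y x₀ • x₀ ≠ 0 := by
        intro h
        have : sympForm m F (y + sympForm m F y x₀ • x₀) x₀ = 0 := by rw [h, sf_zero_left]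
        rw [sf_add_left, sf_smul_left, sf_self, mul_zero, add_zero] at this
        exact hyx this
      obtain ⟨⟨y', hy', hy'ne⟩, -⟩ := hnd i₀ _ ((D i₀).add_mem hy ((D i₀).smul_mem _ hx₀)) hne0
      have h3 := horth i₀ (σ i₀) (Ne.symm hσ0) y' hy' _ hz
      have e : sympForm m F y' (y + sympForm m F y x₀ • (x₀ + x₁)) =
          sympForm m F y' (y + sympForm m F y x₀ • x₀) := by
        simp only [sf_add_right, sf_smul_right, horth i₀ i₁ n01 y' hy' x₁ hx₁]
        ring
      rw [e] at h3
      exact hy'ne h3
  · intro K hHK hKS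
    by_cases hKH : K ≤ decompositionStabilizer D ⊓ spGL m F
    · left; exact le_antisymm hKH hHK
    · right
      apply le_antisymm hKS
      obtain ⟨g, hgK, hgH⟩ := SetLike.not_le_iff_exists.mp hKH
      have hgS : g ∈ spGL m F := hKS hgK
      have hgD : g ∉ decompositionStabilizer D := fun h => hgH ⟨h, hgS⟩
      have hDU : ∀ i, ∀ d ∈ D i, d ∈ tvCentres K := by
        intro i d hd c
        apply hHK
        refine Subgroup.mem_inf.mpr ⟨?_, stGL_mem d c⟩
        apply decomp_stab_of_maps D hfr _ 1
        intro l x hx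
        rw [stGL_mulVec, Equiv.Perm.one_apply]
        by_cases hl : l = i
        · subst hl
          exact (D l).add_mem hx ((D l).smul_mem _ hd)
        · rw [horth l i hl x hx d hd, mul_zero, zero_smul, add_zero]
          exact hx
      have hgne : ∀ v : Fin m ⊕ Fin m → F, v ≠ 0 →
          (g : Matrix (Fin m ⊕ Fin m) (Fin m ⊕ Fin m) F) *ᵥ v ≠ 0 := by
        intro v hv h
        apply hv
        have := congrArg (fun z => ((g⁻¹ : GL (Fin m ⊕ Fin m) F) :
          Matrix (Fin m ⊕ Fin m) (Fin m ⊕ Fin m) F) *ᵥ z) h
        simpa [gl_inv_mulVec] using this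
      -- a block vector whose image lies in no block
      obtain ⟨i, u, hu, hgu⟩ : ∃ i, ∃ u ∈ D i, ∀ j,
          (g : Matrix (Fin m ⊕ Fin m) (Fin m ⊕ Fin m) F) *ᵥ u ∉ D j := by
        by_contra hcon
        push Not at hcon
        apply hgD
        have hex0 : ∀ i, ∃ x ∈ D i, x ≠ 0 := fun i => Submodule.exists_mem_ne_zero_of_ne_bot (hne i)
        choose x₀ hx₀ hx₀0 using hex0
        have htar : ∀ i, ∃ j, (g : Matrix (Fin m ⊕ Fin m) (Fin m ⊕ Fin m) F) *ᵥ x₀ i ∈ D j :=
          fun i => hcon i (x₀ i) (hx₀ i)
        choose σ hσ using htar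
        have hall : ∀ i, ∀ x ∈ D i, (g : Matrix (Fin m ⊕ Fin m) (Fin m ⊕ Fin m) F) *ᵥ x ∈ D (σ i) := by
          intro i x hx
          by_cases hx0 : x = 0
          · rw [hx0, mulVec_zero]; exact zero_mem _
          obtain ⟨j, hj⟩ := hcon i x hx
          by_cases hjσ : j = σ i
          · rw [← hjσ]; exact hj
          · exfalso
            obtain ⟨l, hl⟩ := hcon i (x + x₀ i) ((D i).add_mem hx (hx₀ i))
            rw [mulVec_add] at hl
            by_cases hlj : l = j
            · rw [hlj] at hl
              obtain ⟨⟨y, hy, hyne⟩, -⟩ := hnd (σ i) _ (hσ i) (hgne _ (hx₀0 i))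
              have h1 := horth (σ i) j (Ne.symm hjσ) y hy _ hl
              rw [sf_add_right, horth (σ i) j (Ne.symm hjσ) y hy _ hj, zero_add] at h1
              exact hyne h1
            · obtain ⟨⟨y, hy, hyne⟩, -⟩ := hnd j _ hj (hgne _ hx0)
              have h1 := horth j l (Ne.symm hlj) y hy _ hl
              rw [sf_add_right, horth j (σ i) hjσ y hy _ (hσ i), add_zero] at h1
              exact hyne h1
        have hmapeq : ∀ i, (D i).map (Matrix.toLin' (g : Matrix (Fin m ⊕ Fin m) (Fin m ⊕ Fin m) F)) =
            D (σ i) := by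
          intro i
          apply Submodule.eq_of_le_of_finrank_eq
          · rintro _ ⟨x, hx, rfl⟩
            rw [Matrix.toLin'_apply]
            exact hall i x hx
          · rw [← (Submodule.equivMapOfInjective _ (gl_toLin_injective g) (D i)).finrank_eq, hfr, hfr]
        have hσinj : Function.Injective σ := by
          intro a b hab
          by_contra hne'
          have h1 : (D a).map (Matrix.toLin' (g : Matrix (Fin m ⊕ Fin m) (Fin m ⊕ Fin m) F)) =
              (D b).map (Matrix.toLin' (g : Matrix (Fin m ⊕ Fin m) (Fin m ⊕ Fin m) F)) := by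
            rw [hmapeq, hmapeq, hab]
          have h2 : D a = D b := Submodule.map_injective_of_injective (gl_toLin_injective g) h1
          exact hx₀0 a (hdisj a b hne' (x₀ a) (hx₀ a) (by rw [← h2]; exact hx₀ a))
        have hbij : Function.Bijective σ := Finite.injective_iff_bijective.mp hσinj
        exact ⟨Equiv.ofBijective σ hbij, fun i => hmapeq i⟩
      have hzU : (g : Matrix (Fin m ⊕ Fin m) (Fin m ⊕ Fin m) F) *ᵥ u ∈ tvCentres K :=
        tvCentres_map K hgK hgS (hDU i u hu)
      obtain ⟨z, hz⟩ : ∃ z, z = (g : Matrix (Fin m ⊕ Fin m) (Fin m ⊕ Fin m) F) *ᵥ u := ⟨_, rfl⟩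
      rw [← hz] at hzU hgu
      have hz0 : z ≠ 0 := fun h => hgu i (by rw [h]; exact zero_mem _)
      obtain ⟨a, d, hd, hdz⟩ : ∃ a, ∃ d ∈ D a, sympForm m F d z ≠ 0 := by
        by_contra hcon
        push Not at hcon
        exact hz0 (hzero z hcon)
      obtain ⟨za, hza, z', hz', hzdec⟩ := exists_decomp (D a) (hnd a) z
      have hza0 : za ≠ 0 := by
        rintro rfl
        rw [zero_add] at hzdec
        rw [hzdec] at hdz
        exact hdz ((mem_perp (D a) z').mp hz' d hd)
      have hz'0 : z' ≠ 0 := by
        rintro rfl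
        rw [add_zero] at hzdec
        exact hgu a (by rw [hzdec]; exact hza)
      obtain ⟨b, d', hd', hd'z⟩ : ∃ b, ∃ d ∈ D b, sympForm m F d z' ≠ 0 := by
        by_contra hcon
        push Not at hcon
        exact hz'0 (hzero z' hcon)
      have hab : a ≠ b := by
        rintro rfl
        exact hd'z ((mem_perp (D a) z').mp hz' d' hd')
      obtain ⟨zb, hzb, r, hr, hz'dec⟩ := exists_decomp (D b) (hnd b) z'
      have hzb0 : zb ≠ 0 := by
        rintro rfl
        rw [zero_add] at hz'dec
        rw [hz'dec] at hd'z
        exact hd'z ((mem_perp (D b) r).mp hr d' hd')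
      have hDab : D b ≤ perp (D a) := by
        intro q hq
        rw [mem_perp]
        intro w hw
        exact horth a b hab w hw q hq
      have hDba : D a ≤ perp (D b) := by
        intro q hq
        rw [mem_perp]
        intro w hw
        exact horth b a (Ne.symm hab) w hw q hq
      have hra : r ∈ perp (D a) := by
        have : r = z' - zb := by rw [hz'dec]; abel
        rw [this]
        exact (perp (D a)).sub_mem hz' (hDab hzb)
      -- step 1: all p + q + r
      have step1 : ∀ p ∈ D a, p ≠ 0 → ∀ q ∈ D b, q ≠ 0 → p + q + r ∈ tvCentres K := by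
        intro p hp hp0 q hq hq0
        have h0 : za + (zb + r) ∈ tvCentres K := by
          rw [← hz'dec, ← hzdec]; exact hzU
        have h1 := move_comp K (D a) (hnd a) (hDU a) (zb + r) ((perp (D a)).add_mem (hDab hzb) hra)
          za p hza hp hza0 hp0 h0
        have h1' : zb + (p + r) ∈ tvCentres K := by
          have e : zb + (p + r) = p + (zb + r) := by abel
          rw [e]; exact h1
        have h2 := move_comp K (D b) (hnd b) (hDU b) (p + r) ((perp (D b)).add_mem (hDba hp) hr)
          zb q hzb hq hzb0 hq0 h1'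
        have e : p + q + r = q + (p + r) := by abel
        rw [e]; exact h2
      -- step 2: a vector with exactly two components
      obtain ⟨-, ⟨a'', ha'', haa⟩⟩ := hnd a za hza hza0
      have hexb : ¬ (Module.finrank F (D b) = 2 ∧ Fintype.card F = 2) := by rw [hfr]; exact hex
      obtain ⟨b'', hb'', hb''0, hbb0, hbb⟩ := exists_perp_other (D b) (hnd b) hexb zb hzb hzb0
      have ha''0 : a'' ≠ 0 := by
        rintro rfl
        exact haa (sf_zero_right _)
      have haa0 : za - a'' ≠ 0 := by
        intro h
        have : sympForm m F za (za - a'') = 0 := by rw [h, sf_zero_right]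
        rw [sf_sub_right, sf_self, zero_sub, neg_eq_zero] at this
        exact haa this
      have hy₁ := step1 za hza hza0 zb hzb hzb0
      have hy₂ := step1 a'' ha'' ha''0 b'' hb'' hb''0
      have hne12 : sympForm m F (za + zb + r) (a'' + b'' + r) ≠ 0 := by
        have e : sympForm m F (za + zb + r) (a'' + b'' + r) = sympForm m F za a'' := by
          simp only [sf_add_left, sf_add_right, sf_self, hbb, horth a b hab za hza b'' hb'',
            horth b a (Ne.symm hab) zb hzb a'' ha'', (mem_perp (D a) r).mp hra za hza,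
            (mem_perp (D b) r).mp hr zb hzb, (mem_perp' (D a) r).mp hra a'' ha'',
            (mem_perp' (D b) r).mp hr b'' hb'']
          ring
        rw [e]; exact haa
      have hpq₀ : (za - a'') + (zb - b'') ∈ tvCentres K := by
        have := tvCentres_line K hy₁ hy₂ hne12 1 (-1)
        have e : (1 : F) • (za + zb + r) + (-1 : F) • (a'' + b'' + r) = (za - a'') + (zb - b'') := by
          rw [one_smul, neg_one_smul]; abel
        rwa [e] at this
      have hrel : ∀ p ∈ D a, ∀ q ∈ D b, p + q ∈ tvCentres K := by
        intro p hp q hq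
        by_cases hp0 : p = 0
        · rw [hp0, zero_add]; exact hDU b q hq
        by_cases hq0 : q = 0
        · rw [hq0, add_zero]; exact hDU a p hp
        have h1 := move_comp K (D a) (hnd a) (hDU a) (zb - b'') (hDab ((D b).sub_mem hzb hb''))
          (za - a'') p ((D a).sub_mem hza ha'') hp haa0 hp0 hpq₀
        rw [add_comm] at h1
        have h2 := move_comp K (D b) (hnd b) (hDU b) p (hDba hp) (zb - b'') q ((D b).sub_mem hzb hb'')
          hq hbb0 hq0 h1
        rw [add_comm]; exact h2
      -- step 3: transfer along swaps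
      have htrans : ∀ (a b i j : Fin t), i ≠ j → (∀ p ∈ D a, ∀ q ∈ D b, p + q ∈ tvCentres K) →
          (∀ p ∈ D (Equiv.swap i j a), ∀ q ∈ D (Equiv.swap i j b), p + q ∈ tvCentres K) := by
        intro a b i j hij hrel p hp q hq
        obtain ⟨s, hsS, hsinv, hsAB, hsBA, hsfix⟩ := swap_exists (D i) (D j) (hnd i) (hnd j)
          (horth i j hij) (by rw [hfr, hfr])
        have hsmap : ∀ l, ∀ x ∈ D l, (s : Matrix (Fin m ⊕ Fin m) (Fin m ⊕ Fin m) F) *ᵥ x ∈
            D (Equiv.swap i j l) := by
          intro l x hx
          by_cases hli : l = i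
          · subst hli
            rw [Equiv.swap_apply_left]; exact hsAB x hx
          · by_cases hlj : l = j
            · subst hlj
              rw [Equiv.swap_apply_right]; exact hsBA x hx
            · rw [Equiv.swap_apply_of_ne_of_ne hli hlj, hsfix x
                (fun a' ha' => horth i l (Ne.symm hli) a' ha' x hx)
                (fun b' hb' => horth j l (Ne.symm hlj) b' hb' x hx)]
              exact hx
        have hsK : s ∈ K :=
          hHK (Subgroup.mem_inf.mpr ⟨decomp_stab_of_maps D hfr s (Equiv.swap i j) hsmap, hsS⟩)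
        have hss : ∀ x, (s : Matrix (Fin m ⊕ Fin m) (Fin m ⊕ Fin m) F) *ᵥ
            ((s : Matrix (Fin m ⊕ Fin m) (Fin m ⊕ Fin m) F) *ᵥ x) = x := by
          intro x
          have := gl_inv_mulVec s x
          rwa [hsinv] at this
        have hp' := hsmap _ p hp
        have hq' := hsmap _ q hq
        rw [Equiv.swap_apply_self] at hp' hq'
        have := tvCentres_map K hsK hsS (hrel _ hp' _ hq')
        rwa [mulVec_add, hss, hss] at this
      have hall_b : ∀ c, c ≠ b → ∀ p ∈ D c, ∀ q ∈ D b, p + q ∈ tvCentres K := by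
        intro c hcb
        by_cases hca : c = a
        · rw [hca]; exact hrel
        · have := htrans a b a c (Ne.symm hca) hrel
          rwa [Equiv.swap_apply_left, Equiv.swap_apply_of_ne_of_ne (Ne.symm hab) (Ne.symm hcb)] at this
      have hall : ∀ c d, c ≠ d → ∀ p ∈ D c, ∀ q ∈ D d, p + q ∈ tvCentres K := by
        intro c d hcd
        by_cases hcb : c = b
        · intro p hp q hq
          rw [hcb] at hp
          rw [add_comm]
          exact hall_b d (fun h => hcd (hcb.trans h.symm)) q hq p hp
        · by_cases hdb : d = b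
          · rw [hdb]; exact hall_b c hcb
          · have := htrans c b b d (Ne.symm hdb) (hall_b c hcb)
            rwa [Equiv.swap_apply_left, Equiv.swap_apply_of_ne_of_ne hcb hcd] at this
      -- step 4: every vector is a centre
      have hfin : ∀ S : Finset (Fin t), ∀ x ∈ (⨆ j ∈ S, D j), x ∈ tvCentres K := by
        intro S
        induction S using Finset.induction_on with
        | empty =>
          intro x hx
          simp only [Finset.notMem_empty, iSup_false, iSup_bot, Submodule.mem_bot] at hx
          rw [hx]; exact zero_mem_tvCentres K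
        | insert a S' ha ih =>
          intro x hx
          rw [Finset.iSup_insert] at hx
          obtain ⟨xa, hxa, x', hx', rfl⟩ := Submodule.mem_sup.mp hx
          by_cases hx'0 : x' = 0
          · rw [hx'0, add_zero]; exact hDU a xa hxa
          have hE : ∀ c, c ∉ S' → (⨆ j ∈ S', D j) ≤ perp (D c) := by
            intro c hc
            apply iSup₂_le
            intro j hj d hd
            rw [mem_perp]
            intro w hw
            exact horth c j (by rintro rfl; exact hc hj) w hw d hd
          obtain ⟨b, hb, d, hd, hdx⟩ : ∃ b ∈ S', ∃ d ∈ D b, sympForm m F d x' ≠ 0 := by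
            by_contra hcon
            push Not at hcon
            apply hx'0
            apply hzero
            intro c d hd
            by_cases hc : c ∈ S'
            · exact hcon c hc d hd
            · exact (mem_perp (D c) x').mp (hE c hc hx') d hd
          have hab : a ≠ b := by rintro rfl; exact ha hb
          have hy₁ : xa + d ∈ tvCentres K := hall a b hab xa hxa d hd
          have hy₂ : x' - d ∈ tvCentres K :=
            ih _ (Submodule.sub_mem _ hx' (Submodule.mem_iSup_of_mem b (Submodule.mem_iSup_of_mem hb hd)))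
          have hne : sympForm m F (xa + d) (x' - d) ≠ 0 := by
            have e : sympForm m F (xa + d) (x' - d) = sympForm m F d x' := by
              simp only [sf_add_left, sf_sub_right, sf_self, (mem_perp (D a) x').mp (hE a ha hx') xa hxa,
                horth a b hab xa hxa d hd]
              ring
            rw [e]; exact hdx
          have := tvCentres_line K hy₁ hy₂ hne 1 1
          have e : (1 : F) • (xa + d) + (1 : F) • (x' - d) = xa + x' := by
            rw [one_smul, one_smul]; abel
          rwa [e] at this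
      apply spGL_le_of_tvCentres
      intro x
      apply hfin Finset.univ
      have : (⨆ j ∈ (Finset.univ : Finset (Fin t)), D j) = iSup D := by simp
      rw [this, hD.decomp.iSup_eq_top]
      exact Submodule.mem_top

end Cfsg.Agent.Helper94
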