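import Cfsg.Agent.Helper94.SpParab
import Cfsg.Agent.Helper13.SympBasis

set_option autoImplicit false
set_option linter.unusedSectionVars false
set_option linter.unusedSimpArgs false
set_option linter.unusedVariables false

namespace Cfsg.Agent.Helper94

open Cfsg Cfsg.Geo Matrix

universe u

variable {F : Type u} [Field F] {m : ℕ}

theorem sf_sum_left {α : Type} (s : Finset α) (v : α → Fin m ⊕ Fin m → F) (y : Fin m ⊕ Fin m → F) :
    sympForm m F (∑ r ∈ s, v r) y = ∑ r ∈ s, sympForm m F (v r) y := by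
  show Helper13.sympB m F (∑ r ∈ s, v r) y = _
  rw [map_sum, LinearMap.sum_apply]
  rfl

theorem sf_sum_right {α : Type} (s : Finset α) (v : α → Fin m ⊕ Fin m → F) (y : Fin m ⊕ Fin m → F) :
    sympForm m F y (∑ r ∈ s, v r) = ∑ r ∈ s, sympForm m F y (v r) := by
  show Helper13.sympB m F y (∑ r ∈ s, v r) = _
  rw [map_sum]
  rfl

/-- A hyperbolic basis of a non-degenerate subspace, with the reconstruction formula. -/
theorem exists_hyp_basis (W : Submodule F (Fin m ⊕ Fin m → F)) (hW : IsNondegenerateOn (sympForm m F) W) :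
    ∃ (n : ℕ) (e f : Fin n → Fin m ⊕ Fin m → F), (∀ r, e r ∈ W) ∧ (∀ r, f r ∈ W) ∧
      (∀ r s, sympForm m F (e r) (f s) = if r = s then 1 else 0) ∧
      (∀ r s, sympForm m F (e r) (e s) = 0) ∧ (∀ r s, sympForm m F (f r) (f s) = 0) ∧
      (∀ x ∈ W, x = ∑ r, (sympForm m F x (f r) • e r - sympForm m F x (e r) • f r)) ∧
      Module.finrank F W = 2 * n := by
  classical
  obtain ⟨B', hB'⟩ : ∃ B' : LinearMap.BilinForm F W, ∀ x y : W, B' x y = sympForm m F (x : Fin m ⊕ Fin m → F) y :=
    ⟨(Helper13.sympB m F).restrict W, fun x y => rfl⟩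
  have hA' : B'.IsAlt := fun x => by rw [hB']; exact sf_self _
  obtain ⟨n, k, b, h1, h2, h3, h4⟩ := Helper13.exists_symplectic_basis B' hA'
  have hk : k = 0 := by
    by_contra hk
    have hk' : 0 < k := Nat.pos_of_ne_zero hk
    have hne : (b (Sum.inr ⟨0, hk'⟩) : Fin m ⊕ Fin m → F) ≠ 0 := by
      intro h
      exact b.ne_zero (Sum.inr ⟨0, hk'⟩) (Subtype.ext h)
    obtain ⟨-, ⟨x, hx, hxne⟩⟩ := hW _ (b (Sum.inr ⟨0, hk'⟩)).2 hne
    have := h4 ⟨0, hk'⟩ ⟨x, hx⟩
    rw [hB'] at this
    exact hxne this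
  refine ⟨n, fun r => (b (Sum.inl (Sum.inl r)) : Fin m ⊕ Fin m → F),
    fun r => (b (Sum.inl (Sum.inr r)) : Fin m ⊕ Fin m → F), fun r => (b _).2, fun r => (b _).2, ?_, ?_, ?_, ?_, ?_⟩
  · intro r s
    rw [← hB']; exact h1 r s
  · intro r s
    rw [← hB']; exact h2 r s
  · intro r s
    rw [← hB']; exact h3 r s
  · intro x hx
    have hyp : Helper13.IsHyp B' (fun r => b (Sum.inl (Sum.inl r))) (fun r => b (Sum.inl (Sum.inr r))) :=
      ⟨h1, h2, h3⟩
    have hmem := Helper13.sub_hypProj_mem B' hA' hyp ⟨x, hx⟩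
    obtain ⟨y, hy⟩ : ∃ y : W, y = ⟨x, hx⟩ - Helper13.hypProj B' (fun r => b (Sum.inl (Sum.inl r)))
        (fun r => b (Sum.inl (Sum.inr r))) ⟨x, hx⟩ := ⟨_, rfl⟩
    rw [← hy] at hmem
    have hy0 : y = 0 := by
      by_contra hne
      have hne' : (y : Fin m ⊕ Fin m → F) ≠ 0 := fun h => hne (Subtype.ext h)
      obtain ⟨⟨z, hz, hzne⟩, -⟩ := hW _ y.2 hne'
      have hflip : B'.flip y = 0 := by
        apply b.ext
        intro idx
        rcases idx with (r | r) | j
        · exact (hmem r).1
        · exact (hmem r).2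
        · exact h4 j y
      have h6 : B' ⟨z, hz⟩ y = 0 := congrArg (fun φ => φ ⟨z, hz⟩) hflip
      rw [hB'] at h6
      exact hzne h6
    rw [hy0] at hy
    have h5 := congrArg (Subtype.val) hy
    rw [Helper13.hypProj_apply] at h5
    simp only [Submodule.coe_sub, Submodule.coe_sum, Submodule.coe_smul, ZeroMemClass.coe_zero, hB'] at h5
    exact (sub_eq_zero.mp h5.symm)
  · rw [Module.finrank_eq_card_basis b, hk]
    simp
    ring

/-- The swap of two perpendicular non-degenerate subspaces of the same dimension: an involution in the symplectic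
group interchanging them and fixing every vector perpendicular to both. -/
theorem swap_exists (A B : Submodule F (Fin m ⊕ Fin m → F)) (hA : IsNondegenerateOn (sympForm m F) A)
    (hB : IsNondegenerateOn (sympForm m F) B) (hAB : ∀ a ∈ A, ∀ b ∈ B, sympForm m F a b = 0)
    (hdim : Module.finrank F A = Module.finrank F B) :
    ∃ s : GL (Fin m ⊕ Fin m) F, s ∈ spGL m F ∧ s⁻¹ = s ∧
      (∀ x ∈ A, (s : Matrix (Fin m ⊕ Fin m) (Fin m ⊕ Fin m) F) *ᵥ x ∈ B) ∧
      (∀ x ∈ B, (s : Matrix (Fin m ⊕ Fin m) (Fin m ⊕ Fin m) F) *ᵥ x ∈ A) ∧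
      (∀ x, (∀ a ∈ A, sympForm m F a x = 0) → (∀ b ∈ B, sympForm m F b x = 0) →
        (s : Matrix (Fin m ⊕ Fin m) (Fin m ⊕ Fin m) F) *ᵥ x = x) := by
  classical
  obtain ⟨n, e, f, heA, hfA, hef, hee, hff, hrecA, hnA⟩ := exists_hyp_basis A hA
  obtain ⟨n', e', f', heB, hfB, hef', hee', hff', hrecB, hnB⟩ := exists_hyp_basis B hB
  have hnn : n = n' := by omega
  subst hnn
  have hBA : ∀ b ∈ B, ∀ a ∈ A, sympForm m F b a = 0 := fun b hb a ha => by
    rw [sf_swap, hAB a ha b hb, neg_zero]
  have hfe : ∀ r s, sympForm m F (f r) (e s) = if r = s then -1 else 0 := by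
    intro r s
    rw [sf_swap, hef s r]
    by_cases h : r = s
    · simp [h]
    · simp [h, Ne.symm h]
  have hfe' : ∀ r s, sympForm m F (f' r) (e' s) = if r = s then -1 else 0 := by
    intro r s
    rw [sf_swap, hef' s r]
    by_cases h : r = s
    · simp [h]
    · simp [h, Ne.symm h]
  obtain ⟨u, hu⟩ : ∃ u : Fin n → Fin m ⊕ Fin m → F, ∀ r, u r = e r - e' r := ⟨_, fun r => rfl⟩
  obtain ⟨w, hw⟩ : ∃ w : Fin n → Fin m ⊕ Fin m → F, ∀ r, w r = f r - f' r := ⟨_, fun r => rfl⟩
  have huu : ∀ r s, sympForm m F (u r) (u s) = 0 := by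
    intro r s
    rw [hu, hu]
    simp only [sf_sub_left, sf_sub_right, hee, hee', hAB _ (heA r) _ (heB s), hBA _ (heB r) _ (heA s)]
    ring
  have hww : ∀ r s, sympForm m F (w r) (w s) = 0 := by
    intro r s
    rw [hw, hw]
    simp only [sf_sub_left, sf_sub_right, hff, hff', hAB _ (hfA r) _ (hfB s), hBA _ (hfB r) _ (hfA s)]
    ring
  have huw : ∀ r s, sympForm m F (u r) (w s) = if r = s then 2 else 0 := by
    intro r s
    rw [hu, hw]
    simp only [sf_sub_left, sf_sub_right, hef, hef', hAB _ (heA r) _ (hfB s), hBA _ (heB r) _ (hfA s)]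
    by_cases h : r = s
    · simp [h]; ring
    · simp [h]
  have hwu : ∀ r s, sympForm m F (w r) (u s) = if r = s then -2 else 0 := by
    intro r s
    rw [sf_swap, huw s r]
    by_cases h : r = s
    · simp [h]
    · simp [h, Ne.symm h]
  -- the linear map
  obtain ⟨S, hS⟩ : ∃ S : (Fin m ⊕ Fin m → F) →ₗ[F] (Fin m ⊕ Fin m → F),
      ∀ x, S x = x + ∑ r, (sympForm m F x (u r) • w r - sympForm m F x (w r) • u r) := by
    refine ⟨LinearMap.id + ∑ r, (((Helper13.sympB m F).flip (u r)).smulRight (w r) -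
      ((Helper13.sympB m F).flip (w r)).smulRight (u r)), fun x => ?_⟩
    simp [LinearMap.sum_apply, Helper13.sympB_apply]
  have k1 : ∀ x s, sympForm m F (S x) (u s) = - sympForm m F x (u s) := by
    intro x s
    rw [hS, sf_add_left, sf_sum_left]
    simp only [sf_sub_left, sf_smul_left, huu, hwu, mul_zero, sub_zero, mul_ite, Finset.sum_ite_eq',
      Finset.mem_univ, if_true]
    ring
  have k2 : ∀ x s, sympForm m F (S x) (w s) = - sympForm m F x (w s) := by
    intro x s
    rw [hS, sf_add_left, sf_sum_left]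
    simp only [sf_sub_left, sf_smul_left, hww, huw, mul_zero, zero_sub, mul_ite, Finset.sum_neg_distrib,
      Finset.sum_ite_eq', Finset.mem_univ, if_true]
    ring
  have hinv : ∀ x, S (S x) = x := by
    intro x
    rw [hS (S x)]
    simp only [k1, k2]
    rw [hS, add_assoc, ← Finset.sum_add_distrib]
    have : ∑ r, (sympForm m F x (u r) • w r - sympForm m F x (w r) • u r +
        (-sympForm m F x (u r) • w r - -sympForm m F x (w r) • u r)) = 0 := by
      apply Finset.sum_eq_zero
      intro r _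
      module
    rw [this, add_zero]
  have hiso : ∀ x y, sympForm m F (S x) (S y) = sympForm m F x y := by
    intro x y
    rw [hS y, sf_add_right, sf_sum_right]
    simp only [sf_sub_right, sf_smul_right, k1, k2]
    rw [hS x, sf_add_left, sf_sum_left]
    simp only [sf_sub_left, sf_smul_left]
    rw [add_assoc, ← Finset.sum_add_distrib]
    have : ∑ r, (sympForm m F x (u r) * sympForm m F (w r) y - sympForm m F x (w r) * sympForm m F (u r) y +
        (sympForm m F y (u r) * -sympForm m F x (w r) - sympForm m F y (w r) * -sympForm m F x (u r))) = 0 := by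
      apply Finset.sum_eq_zero
      intro r _
      rw [sf_swap (w r) y, sf_swap (u r) y]
      ring
    rw [this, add_zero]
  refine ⟨glOfInvol S hinv, ?_, glOfInvol_inv S hinv, ?_, ?_, ?_⟩
  · rw [mem_spGL_iff]
    intro x y
    rw [glOfInvol_mulVec, glOfInvol_mulVec]
    exact hiso x y
  · intro x hx
    rw [glOfInvol_mulVec, hS]
    have e1 : ∑ r, (sympForm m F x (u r) • w r - sympForm m F x (w r) • u r) =
        ∑ r, (sympForm m F x (f r) • e' r - sympForm m F x (e r) • f' r) -
        ∑ r, (sympForm m F x (f r) • e r - sympForm m F x (e r) • f r) := by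
      rw [← Finset.sum_sub_distrib]
      apply Finset.sum_congr rfl
      intro r _
      rw [hu, hw, sf_sub_right, sf_sub_right, hAB x hx _ (heB r), hAB x hx _ (hfB r)]
      module
    rw [e1, ← hrecA x hx]
    have e2 : x + (∑ r, (sympForm m F x (f r) • e' r - sympForm m F x (e r) • f' r) - x) =
        ∑ r, (sympForm m F x (f r) • e' r - sympForm m F x (e r) • f' r) := by abel
    rw [e2]
    exact Submodule.sum_mem _ (fun r _ => B.sub_mem (B.smul_mem _ (heB r)) (B.smul_mem _ (hfB r)))
  · intro x hx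
    rw [glOfInvol_mulVec, hS]
    have e1 : ∑ r, (sympForm m F x (u r) • w r - sympForm m F x (w r) • u r) =
        ∑ r, (sympForm m F x (f' r) • e r - sympForm m F x (e' r) • f r) -
        ∑ r, (sympForm m F x (f' r) • e' r - sympForm m F x (e' r) • f' r) := by
      rw [← Finset.sum_sub_distrib]
      apply Finset.sum_congr rfl
      intro r _
      rw [hu, hw, sf_sub_right, sf_sub_right, hBA x hx _ (heA r), hBA x hx _ (hfA r)]
      module
    rw [e1, ← hrecB x hx]
    have e2 : x + (∑ r, (sympForm m F x (f' r) • e r - sympForm m F x (e' r) • f r) - x) =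
        ∑ r, (sympForm m F x (f' r) • e r - sympForm m F x (e' r) • f r) := by abel
    rw [e2]
    exact Submodule.sum_mem _ (fun r _ => A.sub_mem (A.smul_mem _ (heA r)) (A.smul_mem _ (hfA r)))
  · intro x hxA hxB
    rw [glOfInvol_mulVec, hS]
    have : ∑ r, (sympForm m F x (u r) • w r - sympForm m F x (w r) • u r) = 0 := by
      apply Finset.sum_eq_zero
      intro r _
      have h1 : sympForm m F x (u r) = 0 := by
        rw [hu, sf_sub_right, sf_swap x (e r), hxA _ (heA r), sf_swap x (e' r), hxB _ (heB r)]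
        ring
      have h2 : sympForm m F x (w r) = 0 := by
        rw [hw, sf_sub_right, sf_swap x (f r), hxA _ (hfA r), sf_swap x (f' r), hxB _ (hfB r)]
        ring
      rw [h1, h2, zero_smul, zero_smul, sub_zero]
    rw [this, add_zero]

end Cfsg.Agent.Helper94
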